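import Mathlib
import Cfsg.Agent.Lib.Basic.Subnormal

/-!
# Relative subnormality and normal closures; a local form of the zipper

`SN X L` : `X` is subnormal in `L`. `NC A H` : the normal closure of `A` in `H` is `H`.
`lemP` : if `Q` is maximal in `P`, `X ≤ Q`, `X` subnormal in `P` then all `P`-conjugates of `X`
lie in `Q`.
-/

namespace Cfsg.Agent.Lib.Zipper

open Subgroup Cfsg.Agent.Lib.Basic.Conj Cfsg.Agent.Lib.Basic.Subnormal
open scoped Pointwise

universe u

variable {G : Type u} [Group G]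

/-- `X` is subnormal in `L`. -/
abbrev SN (X L : Subgroup G) : Prop := (X.subgroupOf L).IsSubnormal

/-- The normal closure of `A` in `H` is `H`. -/
abbrev NC (A H : Subgroup G) : Prop :=
  normalClosure ((A.subgroupOf H : Subgroup ↥H) : Set ↥H) = ⊤

theorem SN.restrict {X L L' : Subgroup G} (hLL' : L ≤ L') (h : SN X L') : SN X L := by
  refine isSubnormal_of_comap (Subgroup.inclusion hLL') h ?_
  intro x
  simp [Subgroup.mem_subgroupOf]

theorem SN.of_le_normalizer {X L : Subgroup G} (hX : X ≤ L) (h : L ≤ normalizer (X : Set G)) :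
    SN X L :=
  ((normal_subgroupOf_iff_le_normalizer hX).2 h).isSubnormal

theorem SN.self (X : Subgroup G) : SN X X := by
  unfold SN
  rw [Subgroup.subgroupOf_self]
  exact IsSubnormal.top

theorem SN.trans' {X Y Z : Subgroup G} (hXY : X ≤ Y) (h1 : SN X Y) (h2 : SN Y Z) :
    SN X Z := by
  have hle : X.subgroupOf Z ≤ Y.subgroupOf Z := fun x hx => hXY hx
  refine IsSubnormal.trans hle ?_ h2
  let f : ↥(Y.subgroupOf Z) →* ↥Y :=
    { toFun := fun x => ⟨(x : Z), x.2⟩
      map_one' := rfl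
      map_mul' := fun _ _ => rfl }
  refine isSubnormal_of_comap f h1 ?_
  intro x
  rfl

section fin

variable [Finite G]

theorem SN.conj {X L : Subgroup G} (g : G) (h : SN X L) :
    SN (MulAut.conj g • X) (MulAut.conj g • L) :=
  conj_subgroupOf_isSubnormal g h

theorem SN.conj_of_normalizer {X L : Subgroup G} {g : G} (hg : g ∈ normalizer (L : Set G))
    (h : SN X L) : SN (MulAut.conj g • X) L := by
  have := SN.conj g h
  rwa [conj_smul_eq_self_iff.2 hg] at this

theorem SN.sup {X X' L : Subgroup G} (hX : X ≤ L) (hX' : X' ≤ L) (h : SN X L) (h' : SN X' L) :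
    SN (X ⊔ X') L := by
  unfold SN
  rw [subgroupOf_sup hX hX']
  exact sup_isSubnormal h h'

theorem SN.sSup' {F : Set (Subgroup G)} {L : Subgroup G} (hF : ∀ X ∈ F, X ≤ L)
    (h : ∀ X ∈ F, SN X L) : SN (sSup F) L := by
  have hf : F.Finite := Set.toFinite F
  induction F, hf using Set.Finite.induction_on with
  | empty =>
    unfold SN
    simp only [sSup_empty, Subgroup.bot_subgroupOf]
    exact IsSubnormal.bot
  | @insert a s _ _ ih =>
    rw [sSup_insert]
    exact SN.sup (hF _ (Set.mem_insert _ _))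
      (sSup_le fun X hX => hF _ (Set.mem_insert_of_mem _ hX))
      (h _ (Set.mem_insert _ _))
      (ih (fun X hX => hF _ (Set.mem_insert_of_mem _ hX))
        (fun X hX => h _ (Set.mem_insert_of_mem _ hX)))

end fin

/-- The normal closure of `J` in `L`, as a subgroup of `G`. -/
def ncl (J L : Subgroup G) : Subgroup G :=
  (normalClosure ((J.subgroupOf L : Subgroup ↥L) : Set ↥L)).map L.subtype

theorem ncl_le (J L : Subgroup G) : ncl J L ≤ L := by
  rintro x ⟨y, -, rfl⟩
  exact y.2

theorem le_ncl {J L : Subgroup G} (h : J ≤ L) : J ≤ ncl J L := by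
  intro x hx
  exact ⟨⟨x, h hx⟩, subset_normalClosure (by simpa [Subgroup.mem_subgroupOf] using hx), rfl⟩

theorem ncl_subgroupOf (J L : Subgroup G) :
    (ncl J L).subgroupOf L = normalClosure ((J.subgroupOf L : Subgroup ↥L) : Set ↥L) :=
  comap_map_eq_self_of_injective L.subtype_injective _

theorem le_normalizer_ncl (J L : Subgroup G) : L ≤ normalizer (ncl J L : Set G) := by
  refine (normal_subgroupOf_iff_le_normalizer (ncl_le J L)).1 ?_
  rw [ncl_subgroupOf]
  infer_instance

theorem ncl_le_of {J L W : Subgroup G} (hJ : J ≤ W) (hW : W ≤ L)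
    (hN : L ≤ normalizer (W : Set G)) : ncl J L ≤ W := by
  haveI : (W.subgroupOf L).Normal := (normal_subgroupOf_iff_le_normalizer hW).2 hN
  have h : normalClosure ((J.subgroupOf L : Subgroup ↥L) : Set ↥L) ≤ W.subgroupOf L :=
    normalClosure_le_normal (fun x hx => hJ hx)
  rintro x ⟨y, hy, rfl⟩
  exact h hy

theorem nc_of_ncl_eq {J L : Subgroup G} (h : ncl J L = L) : NC J L := by
  have h2 := ncl_subgroupOf J L
  rw [h, Subgroup.subgroupOf_self] at h2
  exact h2.symm

theorem ncl_eq_of_nc {J L : Subgroup G} (h : NC J L) : ncl J L = L := by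
  unfold ncl
  rw [h, ← MonoidHom.range_eq_map, range_subtype]

theorem nc_iff {A H : Subgroup G} (hAH : A ≤ H) :
    NC A H ↔ ∀ W, A ≤ W → W ≤ H → H ≤ normalizer (W : Set G) → W = H := by
  constructor
  · intro h W hAW hWH hN
    have h1 := ncl_le_of hAW hWH hN
    rw [ncl_eq_of_nc h] at h1
    exact le_antisymm hWH h1
  · intro h
    exact nc_of_ncl_eq (h _ (le_ncl hAH) (ncl_le A H) (le_normalizer_ncl A H))

theorem nc_self (A : Subgroup G) : NC A A := by
  refine (nc_iff le_rfl).2 fun W h1 h2 _ => le_antisymm h2 h1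

theorem le_normalizer_sup {T A B : Subgroup G} (hA : T ≤ normalizer (A : Set G))
    (hB : T ≤ normalizer (B : Set G)) : T ≤ normalizer ((A ⊔ B : Subgroup G) : Set G) := by
  intro t ht
  rw [← conj_smul_eq_self_iff, Subgroup.smul_sup, conj_smul_eq_self_iff.2 (hA ht),
    conj_smul_eq_self_iff.2 (hB ht)]

theorem le_normalizer_inf {T A B : Subgroup G} (hA : T ≤ normalizer (A : Set G))
    (hB : T ≤ normalizer (B : Set G)) : T ≤ normalizer ((A ⊓ B : Subgroup G) : Set G) := by
  intro t ht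
  rw [← conj_smul_eq_self_iff, inf_conj_smul, conj_smul_eq_self_iff.2 (hA ht),
    conj_smul_eq_self_iff.2 (hB ht)]

theorem le_normalizer_self (A : Subgroup G) : A ≤ normalizer (A : Set G) :=
  Subgroup.le_normalizer

theorem sup_le_normalizer {T U A : Subgroup G} (hT : T ≤ normalizer (A : Set G))
    (hU : U ≤ normalizer (A : Set G)) : T ⊔ U ≤ normalizer (A : Set G) :=
  sup_le hT hU

theorem exists_mul_of_mem_sup {L U : Subgroup G} (hU : U ≤ normalizer (L : Set G)) {x : G}
    (hx : x ∈ L ⊔ U) : ∃ a ∈ L, ∃ b ∈ U, x = a * b := by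
  have h := coe_mul_of_right_le_normalizer_left L U hU
  have hx' : x ∈ ((L ⊔ U : Subgroup G) : Set G) := hx
  rw [h] at hx'
  obtain ⟨a, ha, b, hb, rfl⟩ := Set.mem_mul.1 hx'
  exact ⟨a, ha, b, hb, rfl⟩

theorem nc_trans {A T H : Subgroup G} (hAT : A ≤ T) (hTH : T ≤ H) (h1 : NC A T) (h2 : NC T H) :
    NC A H := by
  refine (nc_iff (hAT.trans hTH)).2 fun W hAW hWH hN => ?_
  have hT : W ⊓ T = T := by
    refine (nc_iff hAT).1 h1 _ (le_inf hAW hAT) inf_le_right ?_
    exact le_normalizer_inf (fun t ht => hN (hTH ht)) Subgroup.le_normalizer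
  have hTW : T ≤ W := inf_eq_right.1 hT
  exact (nc_iff hTH).1 h2 W hTW hWH hN

section fin2

variable [Finite G]

theorem normalizer_ncl {J L : Subgroup G} {t : G} (hJL : J ≤ L)
    (htL : t ∈ normalizer (L : Set G)) (htJ : t ∈ normalizer (J : Set G)) :
    t ∈ normalizer (ncl J L : Set G) := by
  apply mem_normalizer_of_le_conj_smul
  have hL := conj_smul_eq_self_iff.2 htL
  have hJ := conj_smul_eq_self_iff.2 htJ
  refine ncl_le_of ?_ ?_ ?_
  · calc J = MulAut.conj t • J := hJ.symm
      _ ≤ _ := conj_smul_le_conj_smul.2 (le_ncl hJL)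
  · calc MulAut.conj t • ncl J L ≤ MulAut.conj t • L := conj_smul_le_conj_smul.2 (ncl_le J L)
      _ = L := hL
  · rw [normalizer_conj_smul]
    conv_lhs => rw [← hL]
    exact conj_smul_le_conj_smul.2 (le_normalizer_ncl J L)

theorem exists_min_over {Q N : Subgroup G} (h : Q < N) :
    ∃ P, Q < P ∧ P ≤ N ∧ ∀ Z, Q ≤ Z → Z ≤ P → Z = Q ∨ Z = P := by
  have hf : ({P | Q < P ∧ P ≤ N} : Set (Subgroup G)).Finite := Set.toFinite _
  obtain ⟨P, hP⟩ := hf.exists_minimal ⟨N, h, le_rfl⟩
  refine ⟨P, hP.1.1, hP.1.2, fun Z hQZ hZP => ?_⟩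
  by_cases hZ : Z = Q
  · exact Or.inl hZ
  · right
    have hlt : Q < Z := lt_of_le_of_ne hQZ (Ne.symm hZ)
    exact le_antisymm hZP (hP.2 ⟨hlt, hZP.trans hP.1.2⟩ hZP)

theorem closed_univ {S : Set G} {P B : Subgroup G} (h1 : (1 : G) ∈ S)
    (hP : ∀ x ∈ P, ∀ s ∈ S, x * s ∈ S) (hB : ∀ x ∈ B, ∀ s ∈ S, x * s ∈ S) (hPB : P ⊔ B = ⊤)
    (g : G) : g ∈ S := by
  have key : ∀ y ∈ (P ⊔ B), ∀ s ∈ S, y * s ∈ S := by
    rw [sup_eq_closure]
    intro y hy
    induction hy using closure_induction with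
    | mem x hx =>
      rcases hx with hx | hx
      · exact hP x hx
      · exact hB x hx
    | one => simp
    | mul a b _ _ ha hb =>
      intro s hs
      rw [mul_assoc]
      exact ha _ (hb _ hs)
    | inv a _ ha =>
      intro s hs
      have hpow : ∀ k : ℕ, ∀ s ∈ S, a ^ k * s ∈ S := by
        intro k
        induction k with
        | zero => simp
        | succ k ih =>
          intro s hs
          rw [pow_succ, mul_assoc]
          exact ih _ (ha _ hs)
      have hord : 0 < orderOf a := orderOf_pos a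
      have : a⁻¹ = a ^ (orderOf a - 1) := by
        refine inv_eq_of_mul_eq_one_right ?_
        rw [← pow_succ', Nat.sub_add_cancel hord, pow_orderOf_eq_one]
      rw [this]
      exact hpow _ s hs
  have := key g (by rw [hPB]; trivial) 1 h1
  simpa using this

/-- The local zipper. -/
theorem lemP_aux : ∀ (n : ℕ) (L T U X : Subgroup G), Nat.card L = n →
    T ≤ normalizer (L : Set G) → T ≤ normalizer (U : Set G) → U ≤ L → U ≠ L →
    (∀ Z, U ≤ Z → Z ≤ L → T ≤ normalizer (Z : Set G) → Z = U ∨ Z = L) → X ≤ U → SN X L →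
    ∀ l ∈ L, ∀ x ∈ X, l * x * l⁻¹ ∈ U := by
  intro n
  induction n using Nat.strong_induction_on with
  | _ n ih =>
  intro L T U X hn hTL hTU hUL hUne hmax hXU hSN l hl x hx
  -- the `T`-closure of `X`
  set J := conjJoin X T with hJdef
  have hXJ : X ≤ J := le_conjJoin X T
  have hJU : J ≤ U := by
    refine iSup_le fun t => ?_
    have h := conj_smul_eq_self_iff.2 (hTU t.2)
    rw [← h]
    exact conj_smul_le_conj_smul.2 hXU
  have hJL : J ≤ L := hJU.trans hUL
  have hTJ : T ≤ normalizer (J : Set G) := le_normalizer_conjJoin X T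
  have hSNJ : SN J L := by
    rw [hJdef]
    unfold conjJoin
    rw [← sSup_range]
    refine SN.sSup' ?_ ?_
    · rintro Y ⟨t, rfl⟩
      have := (conj_smul_le_conjJoin X T t.2).trans hJL
      exact this
    · rintro Y ⟨t, rfl⟩
      exact SN.conj_of_normalizer (hTL t.2) hSN
  set L' := ncl J L with hL'def
  have hL'L : L' ≤ L := ncl_le J L
  have hLN : L ≤ normalizer (L' : Set G) := le_normalizer_ncl J L
  have hJL' : J ≤ L' := le_ncl hJL
  have hTL' : T ≤ normalizer (L' : Set G) := fun t ht =>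
    normalizer_ncl hJL (hTL ht) (hTJ ht)
  have hL'ne : L' ≠ L := by
    intro h
    have h1 : NC J L := nc_of_ncl_eq h
    refine normalClosure_ne_top hSNJ ?_ h1
    intro h2
    apply hUne
    refine le_antisymm hUL fun y hy => ?_
    have : (⟨y, hy⟩ : L) ∈ J.subgroupOf L := by rw [h2]; trivial
    exact hJU this
  by_cases hL'U : L' ≤ U
  · exact hL'U ((mem_normalizer_iff.1 (hLN hl) x).1 (hJL' (hXJ hx)))
  have hsup : L' ⊔ U = L := by
    rcases hmax (L' ⊔ U) le_sup_right (sup_le hL'L hUL) (le_normalizer_sup hTL' hTU) with h | h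
    · exact absurd (le_sup_left.trans h.le) hL'U
    · exact h
  -- the smaller situation
  set T' := T ⊔ U with hT'def
  set U' := U ⊓ L' with hU'def
  have hUN : U ≤ normalizer (L' : Set G) := hUL.trans hLN
  have hT'L' : T' ≤ normalizer (L' : Set G) := sup_le hTL' hUN
  have hT'U' : T' ≤ normalizer (U' : Set G) :=
    sup_le (le_normalizer_inf hTU hTL') (le_normalizer_inf Subgroup.le_normalizer hUN)
  have hU'L' : U' ≤ L' := inf_le_right
  have hU'ne : U' ≠ L' := fun h => hL'U (h.symm.le.trans inf_le_left)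
  have hmax' : ∀ Z, U' ≤ Z → Z ≤ L' → T' ≤ normalizer (Z : Set G) → Z = U' ∨ Z = L' := by
    intro Z hU'Z hZL' hT'Z
    have hTZ : T ≤ normalizer (Z : Set G) := le_sup_left.trans hT'Z
    have hUZ : U ≤ normalizer (Z : Set G) := le_sup_right.trans hT'Z
    rcases hmax (Z ⊔ U) le_sup_right (sup_le (hZL'.trans hL'L) hUL) (le_normalizer_sup hTZ hTU)
      with h | h
    · left
      refine le_antisymm ?_ hU'Z
      exact le_inf (le_sup_left.trans h.le) hZL'
    · right
      refine le_antisymm hZL' fun y hy => ?_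
      have hy2 : y ∈ Z ⊔ U := by rw [h]; exact hL'L hy
      obtain ⟨z, hz, u, hu, rfl⟩ := exists_mul_of_mem_sup hUZ hy2
      have hu' : u ∈ L' := by
        have := mul_mem (inv_mem (hZL' hz)) hy
        simpa using this
      exact mul_mem hz (hU'Z ⟨hu, hu'⟩)
  have hcard : Nat.card L' < Nat.card L := card_lt_of_lt (lt_of_le_of_ne hL'L hL'ne)
  have hl2 : l ∈ L' ⊔ U := by rw [hsup]; exact hl
  obtain ⟨a, ha, u, hu, rfl⟩ := exists_mul_of_mem_sup hUN hl2
  have hSNu : SN (MulAut.conj u • X) L' :=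
    SN.restrict hL'L (SN.conj_of_normalizer (Subgroup.le_normalizer (hUL hu)) hSN)
  have hXuU' : MulAut.conj u • X ≤ U' := by
    intro y hy
    rw [mem_conj_smul_iff] at hy
    have h0 := hXJ hy
    have hu1 : u * (u⁻¹ * y * u) * u⁻¹ = y := by group
    have h1 : y ∈ U := by
      rw [← hu1]
      exact mul_mem (mul_mem hu (hJU h0)) (inv_mem hu)
    have h2 : y ∈ L' := by
      rw [← hu1]
      exact (mem_normalizer_iff.1 (hUN hu) _).1 (hJL' h0)
    exact ⟨h1, h2⟩
  have hrec := ih _ (hn ▸ hcard) L' T' U' (MulAut.conj u • X) rfl hT'L' hT'U' hU'L' hU'ne hmax'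
    hXuU' hSNu a ha (u * x * u⁻¹) (conj_mem_conj_smul hx)
  have : a * u * x * (a * u)⁻¹ = a * (u * x * u⁻¹) * a⁻¹ := by group
  rw [this]
  exact hrec.1

/-- If `Q` is maximal in `P`, `X ≤ Q` and `X` is subnormal in `P`, then `X^P ≤ Q`. -/
theorem lemP {P Q X : Subgroup G} (hQP : Q ≤ P) (hne : Q ≠ P)
    (hmax : ∀ Z, Q ≤ Z → Z ≤ P → Z = Q ∨ Z = P) (hXQ : X ≤ Q) (hSN : SN X P) {p : G} (hp : p ∈ P) :
    MulAut.conj p • X ≤ Q := by
  intro y hy
  rw [mem_conj_smul_iff] at hy
  have := lemP_aux _ P Q Q X rfl (hQP.trans Subgroup.le_normalizer) Subgroup.le_normalizer hQP hne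
    (fun Z h1 h2 _ => hmax Z h1 h2) hXQ hSN p hp _ hy
  have h2 : p * (p⁻¹ * y * p) * p⁻¹ = y := by group
  rwa [h2] at this

/-- Dichotomy: `A` is subnormal in `K`, or it generates (as a normal closure) a larger subgroup. -/
theorem dichotomy : ∀ (n : ℕ) (A K : Subgroup G), Nat.card K = n → A ≤ K →
    SN A K ∨ ∃ T, A < T ∧ T ≤ K ∧ NC A T := by
  intro n
  induction n using Nat.strong_induction_on with
  | _ n ih =>
  intro A K hn hAK
  by_cases hnc : NC A K
  · by_cases hAK2 : A = K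
    · left
      rw [hAK2]
      exact SN.self K
    · exact Or.inr ⟨K, lt_of_le_of_ne hAK hAK2, le_rfl, hnc⟩
  · rw [nc_iff hAK] at hnc
    push Not at hnc
    obtain ⟨W, hAW, hWK, hN, hne⟩ := hnc
    have hcard : Nat.card W < Nat.card K := card_lt_of_lt (lt_of_le_of_ne hWK hne)
    rcases ih _ (hn ▸ hcard) A W rfl hAW with h | ⟨T, h1, h2, h3⟩
    · left
      exact SN.trans' hAW h (SN.of_le_normalizer hWK hN)
    · exact Or.inr ⟨T, h1, h2.trans hWK, h3⟩

end fin2

end Cfsg.Agent.Lib.Zipper
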