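import Cfsg.Agent.Lib.Zipper.Basic

/-!
# The combinatorial core of the generalized zipper

Setting: `A` has full normal closure, `M` is a maximal subgroup containing `N(A)`, `A` is subnormal
in every proper subgroup over `A` not in `M`; `K ≠ M` maximal over `A` with `K ∩ M` as large as
possible. These lead to a contradiction.
-/

namespace Cfsg.Agent.Lib.Zipper

open Subgroup Cfsg.Agent.Lib.Basic.Conj Cfsg.Agent.Lib.Basic.Subnormal
open scoped Pointwise

universe u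

variable {G : Type u} [Group G]

theorem conj_smul_eq_top_iff {g : G} {H : Subgroup G} : MulAut.conj g • H = ⊤ ↔ H = ⊤ := by
  have ht : MulAut.conj g • (⊤ : Subgroup G) = ⊤ := conj_smul_normal
  constructor
  · intro h
    rw [← ht] at h
    exact smul_left_cancel _ h
  · rintro rfl
    exact ht

theorem conj_coatom (g : G) {M : Subgroup G} (h : IsCoatom M) :
    IsCoatom (MulAut.conj g • M) := by
  refine ⟨fun h1 => h.1 (conj_smul_eq_top_iff.1 h1), fun Z hZ => ?_⟩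
  have h1 : M < MulAut.conj g⁻¹ • Z := by
    refine lt_of_le_of_ne ?_ ?_
    · rw [← conj_smul_le_conj_smul (g := g), conj_smul_inv_smul]
      exact hZ.le
    · intro h2
      apply hZ.ne
      rw [h2, conj_smul_inv_smul]
  exact conj_smul_eq_top_iff.1 (h.2 _ h1)

theorem coatom_not_le {H M : Subgroup G} (hH : IsCoatom H) (hM : IsCoatom M) (hne : H ≠ M) :
    ¬ H ≤ M := by
  intro hle
  rcases hle.eq_or_lt with h | h
  · exact hne h
  · exact hM.1 (hH.2 _ h)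

theorem max_conj {Q P : Subgroup G} (g : G) (hmax : ∀ Z, Q ≤ Z → Z ≤ P → Z = Q ∨ Z = P) :
    ∀ Z, MulAut.conj g • Q ≤ Z → Z ≤ MulAut.conj g • P →
      Z = MulAut.conj g • Q ∨ Z = MulAut.conj g • P := by
  intro Z h1 h2
  have h3 : Q ≤ MulAut.conj g⁻¹ • Z := by
    rw [← conj_smul_le_conj_smul (g := g), conj_smul_inv_smul]
    exact h1
  have h4 : MulAut.conj g⁻¹ • Z ≤ P := by
    rw [← conj_smul_le_conj_smul (g := g), conj_smul_inv_smul]
    exact h2
  rcases hmax _ h3 h4 with h | h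
  · left
    rw [← h, conj_smul_inv_smul]
  · right
    rw [← h, conj_smul_inv_smul]

theorem nc_conj {A H : Subgroup G} (g : G) (hAH : A ≤ H) (h : NC A H) :
    NC (MulAut.conj g • A) (MulAut.conj g • H) := by
  refine (nc_iff (conj_smul_le_conj_smul.2 hAH)).2 fun W h1 h2 h3 => ?_
  have h4 : A ≤ MulAut.conj g⁻¹ • W := by
    rw [← conj_smul_le_conj_smul (g := g), conj_smul_inv_smul]
    exact h1
  have h5 : MulAut.conj g⁻¹ • W ≤ H := by
    rw [← conj_smul_le_conj_smul (g := g), conj_smul_inv_smul]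
    exact h2
  have h6 : H ≤ normalizer ((MulAut.conj g⁻¹ • W : Subgroup G) : Set G) := by
    rw [normalizer_conj_smul, ← conj_smul_le_conj_smul (g := g), conj_smul_inv_smul]
    exact h3
  have := (nc_iff hAH).1 h _ h4 h5 h6
  rw [← this, conj_smul_inv_smul]

theorem eq_of_sn_nc [Finite G] {C H : Subgroup G} (hCH : C ≤ H) (h1 : SN C H) (h2 : NC C H) :
    C = H := by
  by_contra hne
  refine normalClosure_ne_top h1 ?_ h2
  intro h3
  apply hne
  refine le_antisymm hCH fun y hy => ?_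
  have : (⟨y, hy⟩ : H) ∈ C.subgroupOf H := by rw [h3]; trivial
  exact this

/-- The hypotheses of the combinatorial core. -/
structure Ctx (A M K : Subgroup G) : Prop where
  hA : normalClosure (A : Set G) = ⊤
  hM : IsCoatom M
  hAM : A ≤ M
  hNM : normalizer (A : Set G) ≤ M
  h1 : ∀ H, H ≠ ⊤ → A ≤ H → ¬ H ≤ M → SN A H
  he : ∀ m ∈ M, ∀ H, H ≠ ⊤ → ¬ H ≤ M → A ≤ H → MulAut.conj m • A ≤ H →
    m ∈ normalizer (A : Set G)
  hK : IsCoatom K
  hAK : A ≤ K
  hKM : K ≠ M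
  hmaxK : ∀ K', IsCoatom K' → A ≤ K' → K' ≠ M →
    Nat.card (K' ⊓ M : Subgroup G) ≤ Nat.card (K ⊓ M : Subgroup G)

variable {A M K : Subgroup G}

namespace Ctx

theorem mem_of_normalizer (c : Ctx A M K) {g : G} (hg : g ∈ normalizer (M : Set G)) : g ∈ M := by
  by_contra hgM
  have hlt : M < normalizer (M : Set G) :=
    lt_of_le_of_ne Subgroup.le_normalizer fun h => hgM (by rw [← h] at hg; exact hg)
  have h1 := c.hM.2 _ hlt
  haveI : M.Normal := normalizer_eq_top_iff.1 h1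
  have h2 : normalClosure (A : Set G) ≤ M := normalClosure_le_normal c.hAM
  rw [c.hA] at h2
  exact c.hM.1 (top_le_iff.1 h2)

theorem conj_eq_of_mem (_c : Ctx A M K) {g : G} (hg : g ∈ M) : MulAut.conj g • M = M :=
  Subgroup.conj_smul_eq_self_of_mem hg

theorem hKne (c : Ctx A M K) : ¬ K ≤ M := coatom_not_le c.hK c.hM c.hKM

theorem hAQ (c : Ctx A M K) : A ≤ K ⊓ M := le_inf c.hAK c.hAM

theorem Q_le_normalizer (c : Ctx A M K) : K ⊓ M ≤ normalizer (A : Set G) := by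
  intro q hq
  refine c.he q hq.2 K c.hK.1 c.hKne c.hAK ?_
  have h := Subgroup.conj_smul_eq_self_of_mem hq.1
  rw [← h]
  exact conj_smul_le_conj_smul.2 c.hAK

theorem Q_ne_K (c : Ctx A M K) : K ⊓ M ≠ K := fun h => c.hKne (inf_eq_left.1 h)

theorem Q_lt_K (c : Ctx A M K) : K ⊓ M < K := lt_of_le_of_ne inf_le_left c.Q_ne_K

theorem Q_ne_M (c : Ctx A M K) : K ⊓ M ≠ M := by
  intro h
  have h1 : M ≤ K := inf_eq_right.1 h
  exact c.hKne.elim (by
    rcases h1.eq_or_lt with h2 | h2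
    · exact h2.symm.le
    · exact absurd (c.hM.2 _ h2) c.hK.1)

theorem Q_lt_M (c : Ctx A M K) : K ⊓ M < M := lt_of_le_of_ne inf_le_right c.Q_ne_M

theorem gen [Finite G] (c : Ctx A M K) {P K₀ : Subgroup G} (hQP : K ⊓ M < P) (hPM : P ≤ M)
    (hK₀ : ¬ K₀ ≤ M) : P ⊔ K₀ = ⊤ := by
  by_contra hne
  rcases eq_top_or_exists_le_coatom (P ⊔ K₀) with h | ⟨K', hK', hle⟩
  · exact hne h
  have hK'M : K' ≠ M := by
    rintro rfl
    exact hK₀ (le_sup_right.trans hle)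
  have hA' : A ≤ K' := c.hAQ.trans (hQP.le.trans (le_sup_left.trans hle))
  have h1 := c.hmaxK K' hK' hA' hK'M
  have h2 : P ≤ K' ⊓ M := le_inf (le_sup_left.trans hle) hPM
  have h3 : Nat.card P ≤ Nat.card (K' ⊓ M : Subgroup G) := Subgroup.card_le_of_le h2
  have h4 := card_lt_of_lt hQP
  omega

theorem T1 (c : Ctx A M K) {g : G} (hgM : g ∈ M) (hg : MulAut.conj g • A ≤ K ⊓ M) :
    g ∈ normalizer (A : Set G) :=
  c.he g hgM K c.hK.1 c.hKne c.hAK (hg.trans inf_le_left)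

theorem Pstep [Finite G] (c : Ctx A M K) {P : Subgroup G} (hQP : K ⊓ M ≤ P) (hPM : P ≤ M)
    (hne : K ⊓ M ≠ P) (hmax : ∀ Z, K ⊓ M ≤ Z → Z ≤ P → Z = K ⊓ M ∨ Z = P) {g : G}
    (hg : MulAut.conj g • A ≤ K ⊓ M) (hgM : g ∉ M) {p : G} (hp : p ∈ P) :
    MulAut.conj (p * g) • A ≤ K ⊓ M := by
  have hH := conj_coatom g⁻¹ c.hM
  have hne' : MulAut.conj g⁻¹ • M ≠ M := by
    intro h
    have : g⁻¹ ∈ normalizer (M : Set G) := conj_smul_eq_self_iff.1 h
    exact hgM (by simpa using c.mem_of_normalizer this)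
  have hAH : A ≤ MulAut.conj g⁻¹ • M := by
    rw [← conj_smul_le_conj_smul (g := g), conj_smul_inv_smul]
    exact hg.trans inf_le_right
  have hSN := c.h1 _ hH.1 hAH (coatom_not_le hH c.hM hne')
  have hSN2 := SN.conj g hSN
  rw [conj_smul_inv_smul] at hSN2
  rw [conj_mul_smul]
  exact lemP hQP hne hmax hg (SN.restrict hPM hSN2) hp

theorem Kstep [Finite G] (c : Ctx A M K) {K₀ : Subgroup G} (hQK₀ : K ⊓ M ≤ K₀) (hK₀K : K₀ ≤ K)
    (hne : K ⊓ M ≠ K₀) (hmax : ∀ Z, K ⊓ M ≤ Z → Z ≤ K₀ → Z = K ⊓ M ∨ Z = K₀) {g : G}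
    (hg : MulAut.conj g • A ≤ K ⊓ M) (hgK : MulAut.conj g • M ≠ K) {k : G} (hk : k ∈ K₀) :
    MulAut.conj (k * g) • A ≤ K ⊓ M := by
  have hH := conj_coatom g⁻¹ c.hK
  have hne' : MulAut.conj g⁻¹ • K ≠ M := by
    intro h
    apply hgK
    rw [← h, conj_smul_inv_smul]
  have hAH : A ≤ MulAut.conj g⁻¹ • K := by
    rw [← conj_smul_le_conj_smul (g := g), conj_smul_inv_smul]
    exact hg.trans inf_le_left
  have hSN := c.h1 _ hH.1 hAH (coatom_not_le hH c.hM hne')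
  have hSN2 := SN.conj g hSN
  rw [conj_smul_inv_smul] at hSN2
  rw [conj_mul_smul]
  exact lemP hQK₀ hne hmax hg (SN.restrict hK₀K hSN2) hk

theorem not_mem_of_conj (c : Ctx A M K) {y : G} (hyK : MulAut.conj y • M = K) : y ∉ M := by
  intro hy
  apply c.hKM
  rw [← hyK]
  exact Subgroup.conj_smul_eq_self_of_mem hy

theorem Kpp_ne (c : Ctx A M K) {y : G} (hyK : MulAut.conj y • M = K) :
    MulAut.conj y⁻¹ • M ≠ M := by
  intro h
  have : y⁻¹ ∈ normalizer (M : Set G) := conj_smul_eq_self_iff.1 h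
  exact c.not_mem_of_conj hyK (by simpa using c.mem_of_normalizer this)

theorem A_le_Kpp (c : Ctx A M K) {y : G} (hy : MulAut.conj y • A ≤ K ⊓ M) :
    A ≤ MulAut.conj y⁻¹ • M := by
  rw [← conj_smul_le_conj_smul (g := y), conj_smul_inv_smul]
  exact hy.trans inf_le_right

theorem Qpp_le_M (_c : Ctx A M K) {y : G} (hyK : MulAut.conj y • M = K) :
    MulAut.conj y⁻¹ • (K ⊓ M) ≤ M := by
  rw [← conj_smul_le_conj_smul (g := y), conj_smul_inv_smul, hyK]
  exact inf_le_left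

theorem Qpp_le_Kpp (_c : Ctx A M K) {y : G} :
    MulAut.conj y⁻¹ • (K ⊓ M) ≤ MulAut.conj y⁻¹ • M :=
  conj_smul_le_conj_smul.2 inf_le_right

theorem Qpp_le_normalizer (c : Ctx A M K) {y : G} (hy : MulAut.conj y • A ≤ K ⊓ M)
    (hyK : MulAut.conj y • M = K) : MulAut.conj y⁻¹ • (K ⊓ M) ≤ normalizer (A : Set G) := by
  intro x hx
  have hH := conj_coatom y⁻¹ c.hM
  refine c.he x (c.Qpp_le_M hyK hx) _ hH.1 (coatom_not_le hH c.hM (c.Kpp_ne hyK)) (c.A_le_Kpp hy) ?_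
  have h := Subgroup.conj_smul_eq_self_of_mem (c.Qpp_le_Kpp hx)
  rw [← h]
  exact conj_smul_le_conj_smul.2 (c.A_le_Kpp hy)

theorem y_factor (c : Ctx A M K) {y g : G} (hy : MulAut.conj y • A ≤ K ⊓ M)
    (hyK : MulAut.conj y • M = K) (hg : MulAut.conj g • A ≤ K ⊓ M)
    (hgK : MulAut.conj g • M = K) : y⁻¹ * g ∈ normalizer (A : Set G) := by
  have hH := conj_coatom y⁻¹ c.hM
  have hM' : y⁻¹ * g ∈ M := by
    apply c.mem_of_normalizer
    rw [← conj_smul_eq_self_iff, conj_mul_smul, hgK, ← hyK, conj_inv_smul_smul]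
  refine c.he _ hM' _ hH.1 (coatom_not_le hH c.hM (c.Kpp_ne hyK)) (c.A_le_Kpp hy) ?_
  rw [conj_mul_smul]
  exact conj_smul_le_conj_smul.2 (hg.trans inf_le_right)

theorem no_all_conj (c : Ctx A M K) (h : ∀ g : G, MulAut.conj g • A ≤ K ⊓ M) : False := by
  have h1 : normalClosure (A : Set G) ≤ K ⊓ M := by
    refine (closure_le _).2 ?_
    intro x hx
    obtain ⟨b, hb, hc⟩ := Group.mem_conjugatesOfSet_iff.1 hx
    obtain ⟨g, rfl⟩ := isConj_iff.1 hc
    exact h g (conj_mem_conj_smul hb)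
  rw [c.hA] at h1
  exact c.hM.1 (top_le_iff.1 (h1.trans inf_le_right))

theorem closed_P [Finite G] (c : Ctx A M K) {P : Subgroup G} (hQP : K ⊓ M ≤ P)
    (hPN : P ≤ normalizer (A : Set G)) (hne : K ⊓ M ≠ P)
    (hmax : ∀ Z, K ⊓ M ≤ Z → Z ≤ P → Z = K ⊓ M ∨ Z = P) {x g : G} (hx : x ∈ P)
    (hg : MulAut.conj g • A ≤ K ⊓ M) : MulAut.conj (x * g) • A ≤ K ⊓ M := by
  by_cases hgM : g ∈ M
  · have h1 := c.T1 hgM hg
    have h2 : x * g ∈ normalizer (A : Set G) := mul_mem (hPN hx) h1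
    rw [conj_smul_eq_self_iff.2 h2]
    exact c.hAQ
  · exact c.Pstep hQP (hPN.trans c.hNM) hne hmax hg hgM hx

/-- Step 6: `N(A) = K ∩ M`. -/
theorem normalizer_eq [Finite G] (c : Ctx A M K) : normalizer (A : Set G) = K ⊓ M := by
  by_contra hne
  have hlt : K ⊓ M < normalizer (A : Set G) := lt_of_le_of_ne c.Q_le_normalizer (Ne.symm hne)
  obtain ⟨P, hQP, hPN, hmaxP⟩ := exists_min_over hlt
  have hcl : ∀ x ∈ P, ∀ g ∈ ({g | MulAut.conj g • A ≤ K ⊓ M} : Set G),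
      x * g ∈ ({g | MulAut.conj g • A ≤ K ⊓ M} : Set G) := fun x hx g hg =>
    c.closed_P hQP.le hPN hQP.ne hmaxP hx hg
  have hPM := hPN.trans c.hNM
  have h1Q : MulAut.conj (1 : G) • A ≤ K ⊓ M := by
    rw [conj_one_smul]
    exact c.hAQ
  by_cases hy : ∃ y : G, MulAut.conj y • A ≤ K ⊓ M ∧ MulAut.conj y • M = K
  · obtain ⟨y, hy1, hy2⟩ := hy
    have hQpp := c.Qpp_le_normalizer hy1 hy2
    have hlt2 : MulAut.conj y⁻¹ • (K ⊓ M) < normalizer (A : Set G) := by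
      refine lt_of_le_of_ne hQpp fun h => ?_
      have h3 : Nat.card (normalizer (A : Set G)) = Nat.card (K ⊓ M : Subgroup G) := by
        rw [← h, card_conj_smul]
      exact hlt.ne (Subgroup.eq_of_le_of_card_ge hlt.le h3.le)
    obtain ⟨P2, hQP2, hP2N, hmaxP2⟩ := exists_min_over hlt2
    set K₀ := MulAut.conj y • P2 with hK₀
    have hK₀K : K₀ ≤ K := by
      rw [← hy2]
      exact conj_smul_le_conj_smul.2 (hP2N.trans c.hNM)
    have hmaxK₀ := max_conj y hmaxP2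
    rw [conj_smul_inv_smul] at hmaxK₀
    have hQK₀ : K ⊓ M ≤ K₀ := by
      have := (conj_smul_le_conj_smul (g := y)).2 hQP2.le
      rwa [conj_smul_inv_smul] at this
    have hneK₀ : K ⊓ M ≠ K₀ := by
      intro h
      apply hQP2.ne
      rw [h, hK₀, conj_inv_smul_smul]
    have hK₀M : ¬ K₀ ≤ M := fun h => hneK₀ (le_antisymm hQK₀ (le_inf hK₀K h))
    have hgen := c.gen hQP hPM hK₀M
    have hcl2 : ∀ x ∈ K₀, ∀ g ∈ ({g | MulAut.conj g • A ≤ K ⊓ M} : Set G),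
        x * g ∈ ({g | MulAut.conj g • A ≤ K ⊓ M} : Set G) := by
      intro x hx g hg
      by_cases hgK : MulAut.conj g • M = K
      · have hn := c.y_factor hy1 hy2 hg hgK
        have hp : y⁻¹ * x * y ∈ P2 := mem_conj_smul_iff.1 hx
        have hpn : (y⁻¹ * x * y) * (y⁻¹ * g) ∈ normalizer (A : Set G) := mul_mem (hP2N hp) hn
        have heq : x * g = y * ((y⁻¹ * x * y) * (y⁻¹ * g)) := by group
        change MulAut.conj (x * g) • A ≤ K ⊓ M
        rw [heq, conj_mul_smul, conj_smul_eq_self_iff.2 hpn]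
        exact hy1
      · exact c.Kstep hQK₀ hK₀K hneK₀ hmaxK₀ hg hgK hx
    exact c.no_all_conj (closed_univ (S := {g | MulAut.conj g • A ≤ K ⊓ M}) h1Q
      hcl hcl2 hgen)
  · obtain ⟨K₀, hQK₀, hK₀K, hmaxK₀⟩ := exists_min_over c.Q_lt_K
    have hK₀M : ¬ K₀ ≤ M := fun h => hQK₀.ne (le_antisymm hQK₀.le (le_inf hK₀K h))
    have hgen := c.gen hQP hPM hK₀M
    have hcl2 : ∀ x ∈ K₀, ∀ g ∈ ({g | MulAut.conj g • A ≤ K ⊓ M} : Set G),
        x * g ∈ ({g | MulAut.conj g • A ≤ K ⊓ M} : Set G) := by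
      intro x hx g hg
      exact c.Kstep hQK₀.le hK₀K hQK₀.ne hmaxK₀ hg (fun h => hy ⟨g, hg, h⟩) hx
    exact c.no_all_conj (closed_univ (S := {g | MulAut.conj g • A ≤ K ⊓ M}) h1Q
      hcl hcl2 hgen)

theorem hY [Finite G] (c : Ctx A M K) {t : G} (ht : MulAut.conj t • A ≤ K ⊓ M)
    (htK : MulAut.conj t • M = K) : MulAut.conj t • (K ⊓ M) = K ⊓ M := by
  have h1 := c.Qpp_le_normalizer ht htK
  rw [c.normalizer_eq] at h1
  have h2 : MulAut.conj t⁻¹ • (K ⊓ M) = K ⊓ M :=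
    Subgroup.eq_of_le_of_card_ge h1 (by rw [card_conj_smul])
  calc MulAut.conj t • (K ⊓ M) = MulAut.conj t • (MulAut.conj t⁻¹ • (K ⊓ M)) := by rw [h2]
    _ = K ⊓ M := conj_smul_inv_smul _ _

/-- Step 7: `K ∩ M` is maximal in `M`. -/
theorem Q_max_aux [Finite G] (c : Ctx A M K) {P : Subgroup G} (hQP : K ⊓ M < P) (hPM : P ≤ M)
    (hmax : ∀ Z, K ⊓ M ≤ Z → Z ≤ P → Z = K ⊓ M ∨ Z = P) : P = M := by
  -- choose `K₀`
  obtain ⟨K₀, hQK₀, hK₀K, hneK₀, hmaxK₀, hspec⟩ : ∃ K₀ : Subgroup G, K ⊓ M ≤ K₀ ∧ K₀ ≤ K ∧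
      K ⊓ M ≠ K₀ ∧ (∀ Z, K ⊓ M ≤ Z → Z ≤ K₀ → Z = K ⊓ M ∨ Z = K₀) ∧
      (∀ x ∈ K₀, ∀ t, MulAut.conj t • A ≤ K ⊓ M → MulAut.conj t • M = K →
        ∃ t' p', MulAut.conj t' • A ≤ K ⊓ M ∧ p' ∈ P ∧ x * t = t' * p') := by
    by_cases hy : ∃ y : G, MulAut.conj y • A ≤ K ⊓ M ∧ MulAut.conj y • M = K
    · obtain ⟨y, hy1, hy2⟩ := hy
      have hyQ := c.hY hy1 hy2
      have hmaxK₀ := max_conj y hmax
      rw [hyQ] at hmaxK₀
      refine ⟨MulAut.conj y • P, ?_, ?_, ?_, hmaxK₀, ?_⟩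
      · have := (conj_smul_le_conj_smul (g := y)).2 hQP.le
        rwa [hyQ] at this
      · rw [← hy2]
        exact conj_smul_le_conj_smul.2 hPM
      · intro h
        apply hQP.ne
        have h2 : MulAut.conj y • (K ⊓ M) = MulAut.conj y • P := by rw [hyQ]; exact h
        exact smul_left_cancel _ h2
      · intro x hx t ht htK
        have hn := c.y_factor hy1 hy2 ht htK
        rw [c.normalizer_eq] at hn
        refine ⟨y, (y⁻¹ * x * y) * (y⁻¹ * t), hy1,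
          mul_mem (mem_conj_smul_iff.1 hx) (hQP.le hn), by group⟩
    · obtain ⟨K₀, hQK₀, hK₀K, hmaxK₀⟩ := exists_min_over c.Q_lt_K
      exact ⟨K₀, hQK₀.le, hK₀K, hQK₀.ne, hmaxK₀, fun x _ t ht htK => absurd ⟨t, ht, htK⟩ hy⟩
  have hK₀M : ¬ K₀ ≤ M := fun h => hneK₀ (le_antisymm hQK₀ (le_inf hK₀K h))
  have hgen := c.gen hQP hPM hK₀M
  have hNQ := c.normalizer_eq
  -- the set `𝒲`
  let W : Set G := {w | ∃ t p, MulAut.conj t • A ≤ K ⊓ M ∧ p ∈ P ∧ w = t * p}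
  have h1W : (1 : G) ∈ W := by
    refine ⟨1, 1, ?_, one_mem _, by simp⟩
    rw [conj_one_smul]
    exact c.hAQ
  have hclP : ∀ x ∈ P, ∀ w ∈ W, x * w ∈ W := by
    rintro x hx w ⟨t, p, ht, hp, rfl⟩
    by_cases htM : t ∈ M
    · have h2 := c.T1 htM ht
      rw [hNQ] at h2
      refine ⟨1, x * (t * p), ?_, mul_mem hx (mul_mem (hQP.le h2) hp), by simp⟩
      rw [conj_one_smul]
      exact c.hAQ
    · exact ⟨x * t, p, c.Pstep hQP.le hPM hQP.ne hmax ht htM hx, hp, by group⟩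
  have hclK : ∀ x ∈ K₀, ∀ w ∈ W, x * w ∈ W := by
    rintro x hx w ⟨t, p, ht, hp, rfl⟩
    by_cases htK : MulAut.conj t • M = K
    · obtain ⟨t', p', ht', hp', he⟩ := hspec x hx t ht htK
      exact ⟨t', p' * p, ht', mul_mem hp' hp, by rw [← mul_assoc, he, mul_assoc]⟩
    · exact ⟨x * t, p, c.Kstep hQK₀ hK₀K hneK₀ hmaxK₀ ht htK hx, hp, by group⟩
  refine le_antisymm hPM fun m hm => ?_
  obtain ⟨t, p, ht, hp, rfl⟩ := closed_univ h1W hclP hclK hgen m
  have htM : t ∈ M := by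
    have := mul_mem hm (inv_mem (hPM hp))
    simpa using this
  have h2 := c.T1 htM ht
  rw [hNQ] at h2
  exact mul_mem (hQP.le h2) hp

theorem Q_max [Finite G] (c : Ctx A M K) :
    ∀ Z, K ⊓ M ≤ Z → Z ≤ M → Z = K ⊓ M ∨ Z = M := by
  intro Z h1 h2
  by_cases hZ : Z = K ⊓ M
  · exact Or.inl hZ
  · right
    have hlt : K ⊓ M < Z := lt_of_le_of_ne h1 (Ne.symm hZ)
    obtain ⟨P, hQP, hPZ, hmaxP⟩ := exists_min_over hlt
    have := c.Q_max_aux hQP (hPZ.trans h2) hmaxP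
    exact le_antisymm h2 (this.symm.le.trans hPZ)

end Ctx

/-- The reachable elements in the final step. -/
inductive CC (M K K₀ : Subgroup G) : G → Prop
  | one : CC M K K₀ 1
  | k {h x : G} : CC M K K₀ h → MulAut.conj h • M ≠ K → x ∈ K₀ → CC M K K₀ (x * h)
  | m {h x : G} : CC M K K₀ h → h ∉ M → x ∈ M → CC M K K₀ (x * h)

namespace Ctx

theorem false [Finite G] (c : Ctx A M K) : False := by
  have hNQ := c.normalizer_eq
  have hQM := c.Q_max
  obtain ⟨K₀, hQK₀, hK₀K, hmaxK₀⟩ := exists_min_over c.Q_lt_K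
  obtain ⟨m, hm, hmQ⟩ := SetLike.exists_of_lt c.Q_lt_M
  obtain ⟨k, hk, hkQ⟩ := SetLike.exists_of_lt hQK₀
  have hkM : k ∉ M := fun h => hkQ ⟨hK₀K hk, h⟩
  have hT : ∀ h, CC M K K₀ h → MulAut.conj h • A ≤ K ⊓ M := by
    intro h hh
    induction hh with
    | one =>
      rw [conj_one_smul]
      exact c.hAQ
    | k _ hne hx ih => exact c.Kstep hQK₀.le hK₀K hQK₀.ne hmaxK₀ ih hne hx
    | m _ hne hx ih => exact c.Pstep inf_le_right le_rfl c.Q_ne_M hQM ih hne hx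
  have key : ∀ h, MulAut.conj h • A ≤ K ⊓ M → MulAut.conj (h * (m * k)) • (K ⊓ M) = K ⊓ M →
      False := by
    intro h hh ht
    apply hmQ
    have hh2 : MulAut.conj (m * k)⁻¹ • A ≤ K ⊓ M := by
      have h3 : h = (h * (m * k)) * (m * k)⁻¹ := by group
      rw [h3, conj_mul_smul] at hh
      have h4 := (conj_smul_le_conj_smul (g := (h * (m * k))⁻¹)).2 hh
      rw [conj_inv_smul_smul] at h4
      refine h4.trans (le_of_eq ?_)
      conv_lhs => rw [← ht]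
      rw [conj_inv_smul_smul]
    have hh3 : MulAut.conj m⁻¹ • A ≤ K₀ := by
      rw [mul_inv_rev, conj_mul_smul] at hh2
      have h4 := (conj_smul_le_conj_smul (g := k)).2 (hh2.trans hQK₀.le)
      rwa [conj_smul_inv_smul, Subgroup.conj_smul_eq_self_of_mem hk] at h4
    have h5 := c.he _ (inv_mem hm) K c.hK.1 c.hKne c.hAK (hh3.trans hK₀K)
    rw [hNQ] at h5
    simpa using inv_mem h5
  have hstep : ∀ h, CC M K K₀ h → CC M K K₀ (h * (m * k)) := by
    intro h hh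
    induction hh with
    | one =>
      have h1 : CC M K K₀ (k * 1) := CC.k CC.one (by rw [conj_one_smul]; exact c.hKM.symm) hk
      rw [mul_one] at h1
      have h2 : CC M K K₀ (m * k) := CC.m h1 hkM hm
      simpa using h2
    | @k h x hh hne hx ih =>
      have h1 : MulAut.conj (h * (m * k)) • M ≠ K := fun h2 =>
        key h (hT h hh) (c.hY (hT _ ih) h2)
      have h2 := CC.k ih h1 hx
      rwa [← mul_assoc] at h2
    | @m h x hh hne hx ih =>
      have h1 : h * (m * k) ∉ M := fun h2 => by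
        have h3 := c.T1 h2 (hT _ ih)
        rw [hNQ] at h3
        exact key h (hT h hh) (Subgroup.conj_smul_eq_self_of_mem h3)
      have h2 := CC.m ih h1 hx
      rwa [← mul_assoc] at h2
  have hpow : ∀ j : ℕ, CC M K K₀ ((m * k) ^ j) := by
    intro j
    induction j with
    | zero => simpa using CC.one
    | succ j ih =>
      rw [pow_succ]
      exact hstep _ ih
  have hord : 0 < orderOf (m * k) := orderOf_pos _
  have h1 := hpow (orderOf (m * k) - 1)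
  refine key _ (hT _ h1) ?_
  rw [← pow_succ, Nat.sub_add_cancel hord, pow_orderOf_eq_one, conj_one_smul]

end Ctx

end Cfsg.Agent.Lib.Zipper
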