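import Cfsg.Agent.Lib.Zipper.Core

/-!
# The generalized zipper lemma

If `A` is a proper subgroup with full normal closure in a finite group and `Y` is the join of the
proper subgroups `H ≥ A` with `A^H = H`, then `Y = G` or `A` lies in a unique maximal subgroup.
-/

namespace Cfsg.Agent.Lib.Zipper

open Subgroup Cfsg.Agent.Lib.Basic.Conj Cfsg.Agent.Lib.Basic.Subnormal
open scoped Pointwise

universe u

variable {G : Type u} [Group G] [Finite G]

/-- The proper subgroups over `A` generated by the conjugates of `A` in them. -/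
def Hset (A : Subgroup G) : Set (Subgroup G) := {H | A ≤ H ∧ H ≠ ⊤ ∧ NC A H}

omit [Finite G] in
theorem normalClosure_eq_top_of_le {A T : Subgroup G} (hA : normalClosure (A : Set G) = ⊤)
    (hAT : A ≤ T) : normalClosure (T : Set G) = ⊤ :=
  top_le_iff.1 (hA ▸ normalClosure_mono hAT)

theorem generalized_zipper (A : Subgroup G) :
    normalClosure (A : Set G) = ⊤ → A ≠ ⊤ →
      sSup (Hset A) = ⊤ ∨ ∃! M : Subgroup G, IsCoatom M ∧ A ≤ M := by
  induction A using WellFoundedGT.induction with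
  | ind A ih =>
  intro hA hAG
  by_contra hcon
  push Not at hcon
  obtain ⟨hY, huniq⟩ := hcon
  set Y := sSup (Hset A) with hYdef
  have hAmem : A ∈ Hset A := ⟨le_rfl, hAG, nc_self A⟩
  have hAY : A ≤ Y := le_sSup hAmem
  have hNY : normalizer (Y : Set G) ≠ ⊤ := by
    intro h
    haveI : Y.Normal := normalizer_eq_top_iff.1 h
    have h1 : normalClosure (A : Set G) ≤ Y := normalClosure_le_normal hAY
    rw [hA] at h1
    exact hY (top_le_iff.1 h1)
  obtain ⟨M, hM, hNM'⟩ := (eq_top_or_exists_le_coatom (normalizer (Y : Set G))).resolve_left hNY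
  have hYM : Y ≤ M := Subgroup.le_normalizer.trans hNM'
  have hAM : A ≤ M := hAY.trans hYM
  have hinv : ∀ n ∈ normalizer (A : Set G), ∀ H ∈ Hset A, MulAut.conj n • H ∈ Hset A := by
    intro n hn H hH
    have h1 := conj_smul_eq_self_iff.2 hn
    refine ⟨?_, fun h => hH.2.1 (conj_smul_eq_top_iff.1 h), ?_⟩
    · have := (conj_smul_le_conj_smul (g := n)).2 hH.1
      rwa [h1] at this
    · have := nc_conj n hH.1 hH.2.2
      rwa [h1] at this
  have hNAY : normalizer (A : Set G) ≤ normalizer (Y : Set G) := by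
    intro n hn
    apply mem_normalizer_of_le_conj_smul
    refine sSup_le fun H hH => ?_
    have h1 : MulAut.conj n⁻¹ • H ≤ Y := le_sSup (hinv n⁻¹ (inv_mem hn) H hH)
    have h2 := (conj_smul_le_conj_smul (g := n)).2 h1
    rwa [conj_smul_inv_smul] at h2
  have hNM : normalizer (A : Set G) ≤ M := hNAY.trans hNM'
  -- step (1)
  have h1 : ∀ H, H ≠ ⊤ → A ≤ H → ¬ H ≤ M → SN A H := by
    intro H hne hAH hnot
    rcases dichotomy _ A H rfl hAH with h | ⟨T, hT1, hT2, hT3⟩
    · exact h
    exfalso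
    have hTtop : T ≠ ⊤ := fun h => hne (top_le_iff.1 (h ▸ hT2))
    have hTY : T ≤ Y := le_sSup ⟨hT1.le, hTtop, hT3⟩
    rcases ih T hT1 (normalClosure_eq_top_of_le hA hT1.le) hTtop with h | ⟨M', ⟨-, -⟩, hu⟩
    · apply hY
      rw [eq_top_iff, ← h]
      refine sSup_le fun H' hH' => le_sSup ?_
      exact ⟨hT1.le.trans hH'.1, hH'.2.1, nc_trans hT1.le hH'.1 hT3 hH'.2.2⟩
    · obtain ⟨K', hK', hle⟩ := (eq_top_or_exists_le_coatom H).resolve_left hne
      have h2 := hu M ⟨hM, hTY.trans hYM⟩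
      have h3 := hu K' ⟨hK', hT2.trans hle⟩
      have hK'M : K' = M := h3.trans h2.symm
      exact hnot (hle.trans hK'M.le)
  -- step (e)
  have he : ∀ m ∈ M, ∀ H, H ≠ ⊤ → ¬ H ≤ M → A ≤ H → MulAut.conj m • A ≤ H →
      m ∈ normalizer (A : Set G) := by
    intro m hm H hne hnot hAH hmH
    by_contra hmN
    obtain ⟨C, hC⟩ : ∃ C : Subgroup G, C = A ⊔ MulAut.conj m • A := ⟨_, rfl⟩
    have hAC1 : A ≤ C := by rw [hC]; exact le_sup_left
    have hAC2 : MulAut.conj m • A ≤ C := by rw [hC]; exact le_sup_right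
    have hAC : A < C := lt_of_le_of_ne hAC1 fun h =>
      hmN (mem_normalizer_of_conj_smul_le (hAC2.trans h.symm.le))
    have hCH : C ≤ H := by rw [hC]; exact sup_le hAH hmH
    have hCM : C ≤ M := by
      rw [hC]
      refine sup_le hAM ?_
      have := (conj_smul_le_conj_smul (g := m)).2 hAM
      rwa [Subgroup.conj_smul_eq_self_of_mem hm] at this
    have hCtop : C ≠ ⊤ := fun h => hne (top_le_iff.1 (h ▸ hCH))
    obtain ⟨K', hK', hle⟩ := (eq_top_or_exists_le_coatom H).resolve_left hne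
    rcases ih C hAC (normalClosure_eq_top_of_le hA hAC.le) hCtop with h | ⟨M', ⟨-, -⟩, hu⟩
    · apply hM.1
      rw [eq_top_iff, ← h]
      refine sSup_le fun H' hH' => ?_
      by_contra hnot'
      have hAH' : A ≤ H' := hAC.le.trans hH'.1
      have hs1 := h1 H' hH'.2.1 hAH' hnot'
      have hA1H' : MulAut.conj m • A ≤ H' := hAC2.trans hH'.1
      have hs2 : SN A (MulAut.conj m⁻¹ • H') := by
        refine h1 _ (fun h => hH'.2.1 (conj_smul_eq_top_iff.1 h)) ?_ ?_
        · rw [← conj_smul_le_conj_smul (g := m), conj_smul_inv_smul]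
          exact hA1H'
        · intro h
          apply hnot'
          have := (conj_smul_le_conj_smul (g := m)).2 h
          rwa [conj_smul_inv_smul, Subgroup.conj_smul_eq_self_of_mem hm] at this
      have hs3 := SN.conj m hs2
      rw [conj_smul_inv_smul] at hs3
      have hs4 : SN C H' := by
        rw [hC]
        exact SN.sup hAH' hA1H' hs1 hs3
      have := eq_of_sn_nc hH'.1 hs4 hH'.2.2
      exact hnot' (this.symm.le.trans hCM)
    · have h2 := hu M ⟨hM, hCM⟩
      have h3 := hu K' ⟨hK', hCH.trans hle⟩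
      have hK'M : K' = M := h3.trans h2.symm
      exact hnot (hle.trans hK'M.le)
  -- another coatom
  have hex : ∃ K' : Subgroup G, IsCoatom K' ∧ A ≤ K' ∧ K' ≠ M := by
    by_contra hno
    push Not at hno
    exact huniq ⟨M, ⟨hM, hAM⟩, fun K' hK' => hno K' hK'.1 hK'.2⟩
  have hf : ({K' | IsCoatom K' ∧ A ≤ K' ∧ K' ≠ M} : Set (Subgroup G)).Finite := Set.toFinite _
  obtain ⟨K, ⟨hK, hAK, hKM⟩, hKmax⟩ := Set.exists_max_image _
    (fun K' : Subgroup G => Nat.card (K' ⊓ M : Subgroup G)) hf hex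
  have c : Ctx A M K :=
    { hA := hA
      hM := hM
      hAM := hAM
      hNM := hNM
      h1 := h1
      he := he
      hK := hK
      hAK := hAK
      hKM := hKM
      hmaxK := fun K' h1 h2 h3 => hKmax K' ⟨h1, h2, h3⟩ }
  exact c.false

end Cfsg.Agent.Lib.Zipper
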